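import Cfsg.Agent.Transfer.Frobenius
import Cfsg.Agent.Fusion.AlperinCor
import Cfsg.Agent.Fusion.Group

/-!
Frobenius' normal p-complement criterion relative to a strongly closed subgroup.
-/

set_option autoImplicit false

namespace Cfsg.Agent.FrobClosed

open Cfsg CfsgLib.Fusion
open Cfsg.FusionSystem hiding inv_mem

variable {G : Type*} [Group G] [Finite G] {p : ℕ} [Fact p.Prime]

theorem hasNormalPComplement_subgroup (h : Cfsg.HasNormalPComplement p G) (H : Subgroup G) :
    Cfsg.HasNormalPComplement p H := by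
  have hl := CfsgLib.Transfer.locallyTrivial_of_hasNormalPComplement h
  refine CfsgLib.Transfer.frobenius_normal_complement fun Q hQ g hg ho => ?_
  have h1 : (g : G) ∈ Subgroup.normalizer ((Q.map H.subtype : Subgroup G) : Set G) :=
    Subgroup.le_normalizer_map H.subtype ⟨g, hg, rfl⟩
  have h2 := hl _ (hQ.map H.subtype) (g : G) h1 (by rwa [Subgroup.orderOf_coe])
  refine Subgroup.mem_centralizer_iff.2 fun q hq => Subtype.ext ?_
  exact Subgroup.mem_centralizer_iff.1 h2 (q : G) ⟨q, hq, rfl⟩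

theorem isPGroup_autGroup (S : Sylow p G) {D : Subgroup G}
    (hD : Cfsg.IsStronglyClosed D (S : Subgroup G))
    (hloc : ∀ U : Subgroup G, U ≤ D → D ⊓ Subgroup.centralizer (U : Set G) ≤ U →
      Cfsg.HasNormalPComplement p ↥(Subgroup.normalizer (U : Set G)))
    {P : Subgroup G} (hPS : P ≤ (S : Subgroup G))
    (hc : (groupFusionSystem (S : Subgroup G)).IsCentric P)
    (hr : (groupFusionSystem (S : Subgroup G)).IsRadical p P) :
    IsPGroup p ((groupFusionSystem (S : Subgroup G)).autGroup P) := by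
  set F := groupFusionSystem (S : Subgroup G)
  set U := D ⊓ P with hU
  -- automorphisms of `P` leave `U` invariant
  have hinv : ∀ α ∈ F.autGroup P, ∀ u : P, (u : G) ∈ U → ((α u : P) : G) ∈ U := by
    intro α hα u hu
    rw [autGroup_group hPS, mem_autInducedBy] at hα
    obtain ⟨g, -, hg⟩ := hα
    refine ⟨?_, (α u).2⟩
    have h1 := hPS (α u).2
    rw [hg u] at h1 ⊢
    exact hD.2 _ hu.1 g h1
  have hDn : ∀ s ∈ (S : Subgroup G), ∀ d ∈ D, s * d * s⁻¹ ∈ D := fun s hs d hd =>
    hD.2 d hd s (mul_mem (mul_mem hs (hD.1 hd)) (inv_mem hs))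
  have hUn : ∀ r ∈ P, ∀ u ∈ U, r * u * r⁻¹ ∈ U := fun r hrP u hu =>
    ⟨hDn r (hPS hrP) u hu.1, P.mul_mem (P.mul_mem hrP hu.2) (P.inv_mem hrP)⟩
  -- `C_D(U) ≤ U`
  have hkey : D ⊓ Subgroup.centralizer (U : Set G) ≤ U := by
    set W := D ⊓ Subgroup.centralizer (U : Set G) with hW
    by_contra hWU
    have hWP : ¬ W ≤ P := fun h => hWU (le_inf inf_le_left h)
    have hWn : ∀ r ∈ P, ∀ w ∈ W, r * w * r⁻¹ ∈ W := by
      intro r hrP w hw
      refine ⟨hDn r (hPS hrP) w hw.1, Subgroup.mem_centralizer_iff.2 fun u hu => ?_⟩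
      have h2 : r⁻¹ * u * r ∈ U := by
        have := hUn r⁻¹ (inv_mem hrP) u hu
        rwa [inv_inv] at this
      calc u * (r * w * r⁻¹) = r * ((r⁻¹ * u * r) * w) * r⁻¹ := by group
        _ = r * (w * (r⁻¹ * u * r)) * r⁻¹ := by rw [Subgroup.mem_centralizer_iff.1 hw.2 _ h2]
        _ = r * w * r⁻¹ * u := by group
    have hPW : P ≤ Subgroup.normalizer (W : Set G) := fun r hrP =>
      Subgroup.mem_normalizer_iff.2 fun w => ⟨fun hw => hWn r hrP w hw, fun hw => by
        have := hWn r⁻¹ (inv_mem hrP) _ hw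
        simpa [mul_assoc] using this⟩
    set T := P ⊔ W with hT
    have hTS : T ≤ (S : Subgroup G) := sup_le hPS (inf_le_left.trans hD.1)
    have hTp : IsPGroup p T := S.isPGroup'.to_le hTS
    have : Group.IsNilpotent T := hTp.isNilpotent
    have hlt : P.subgroupOf T < ⊤ := by
      refine lt_top_iff_ne_top.2 (fun h => hWP ?_)
      rw [Subgroup.subgroupOf_eq_top] at h
      exact le_sup_right.trans h
    have hN := Group.normalizerCondition_of_isNilpotent (P.subgroupOf T) hlt
    obtain ⟨⟨n, hnT⟩, hnN, hnP⟩ := SetLike.exists_of_lt hN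
    have hnPnorm : ∀ y ∈ P, n * y * n⁻¹ ∈ P := fun y hy =>
      (Subgroup.mem_normalizer_iff.1 hnN ⟨y, le_sup_left (α := Subgroup G) hy⟩).1 hy
    obtain ⟨r, hrP, w, hw, rfl⟩ : ∃ r ∈ P, ∃ w ∈ W, r * w = n := by
      have h : n ∈ ((P ⊔ W : Subgroup G) : Set G) := hnT
      rw [Subgroup.coe_mul_of_left_le_normalizer_right P W hPW] at h
      obtain ⟨r, hr', w, hw, he⟩ := Set.mem_mul.1 h
      exact ⟨r, hr', w, hw, he⟩
    have hwP : w ∉ P := fun h => hnP (Subgroup.mem_subgroupOf.2 (mul_mem hrP h))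
    have hwnorm : ∀ y ∈ P, w * y * w⁻¹ ∈ P := by
      intro y hy
      have h2 := mul_mem (mul_mem (inv_mem hrP) (hnPnorm y hy)) hrP
      rwa [show r⁻¹ * (r * w * y * (r * w)⁻¹) * r = w * y * w⁻¹ by group] at h2
    have hwS : w ∈ (S : Subgroup G) := hD.1 hw.1
    have hwN : w ∈ Subgroup.normalizer (P : Set G) := by
      refine Subgroup.mem_normalizer_iff.2 fun y => ⟨fun hy => hwnorm y hy, fun hy => ?_⟩
      have hinj : Function.Injective (fun a : P => (⟨w * a * w⁻¹, hwnorm a a.2⟩ : P)) :=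
        fun a b h => Subtype.ext (mul_left_cancel (mul_right_cancel (congrArg Subtype.val h)))
      obtain ⟨a, ha⟩ := Finite.surjective_of_injective hinj ⟨_, hy⟩
      have h3 : w * (a : G) * w⁻¹ = w * y * w⁻¹ := congrArg Subtype.val ha
      rw [← mul_left_cancel (mul_right_cancel h3)]
      exact a.2
    set β : MulAut P := conjAut P (S : Subgroup G) ⟨w, hwS, hwN⟩ with hβ
    let Stab : Subgroup (F.autGroup P) :=
      { carrier := {α | (∀ u : P, (u : G) ∈ U → (α : MulAut P) u = u) ∧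
          ∀ y : P, (((α : MulAut P) y * y⁻¹ : P) : G) ∈ U}
        one_mem' := ⟨fun u _ => rfl, fun y => by simp⟩
        mul_mem' := by
          rintro a b ⟨ha, ha'⟩ ⟨hb, hb'⟩
          refine ⟨fun u hu => ?_, fun y => ?_⟩
          · show (a : MulAut P) ((b : MulAut P) u) = u
            rw [hb u hu, ha u hu]
          · show (((a : MulAut P) ((b : MulAut P) y) * y⁻¹ : P) : G) ∈ U
            have h := mul_mem (hb' y) (ha' y)
            rw [← Subgroup.coe_mul] at h
            rwa [show (a : MulAut P) ((b : MulAut P) y) * y⁻¹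
              = ((b : MulAut P) y * y⁻¹) * ((a : MulAut P) y * y⁻¹) by
              conv_lhs => rw [show (b : MulAut P) y = ((b : MulAut P) y * y⁻¹) * y by group]
              rw [map_mul, ha _ (hb' y), mul_assoc]]
        inv_mem' := by
          rintro a ⟨ha, ha'⟩
          refine ⟨fun u hu => ?_, fun y => ?_⟩
          · show (a : MulAut P)⁻¹ u = u
            conv_lhs => rw [← ha u hu]
            exact MulAut.inv_apply_self _ _ _
          · show (((a : MulAut P)⁻¹ y * y⁻¹ : P) : G) ∈ U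
            have h := inv_mem (ha' ((a : MulAut P)⁻¹ y))
            rw [MulAut.apply_inv_self, ← Subgroup.coe_inv] at h
            rwa [mul_inv_rev, inv_inv] at h }
    have hStabN : Stab.Normal := by
      refine ⟨fun a ha γ => ⟨fun u hu => ?_, fun y => ?_⟩⟩
      · show (γ : MulAut P) ((a : MulAut P) ((γ : MulAut P)⁻¹ u)) = u
        rw [ha.1 _ (hinv _ (inv_mem γ.2) u hu), MulAut.apply_inv_self]
      · show ((((γ : MulAut P) ((a : MulAut P) ((γ : MulAut P)⁻¹ y))) * y⁻¹ : P) : G) ∈ U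
        have h := hinv _ γ.2 _ (ha.2 ((γ : MulAut P)⁻¹ y))
        rwa [map_mul, map_inv, MulAut.apply_inv_self] at h
    have hStabp : IsPGroup p Stab := by
      have hUp : IsPGroup p U := S.isPGroup'.to_le (inf_le_left.trans hD.1)
      obtain ⟨m, hm⟩ := IsPGroup.iff_card.1 hUp
      intro a
      refine ⟨m, Subtype.ext (Subtype.ext (MulEquiv.ext fun y => ?_))⟩
      have hpow : ∀ j : ℕ, (((a : F.autGroup P) : MulAut P) ^ j) y
          = ((((a : F.autGroup P) : MulAut P) y * y⁻¹) ^ j) * y := by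
        intro j
        induction j with
        | zero => simp
        | succ j ih =>
          set q := ((a : F.autGroup P) : MulAut P) y * y⁻¹ with hq
          have hfix : ((a : F.autGroup P) : MulAut P) q = q := a.2.1 _ (a.2.2 y)
          rw [pow_succ', MulAut.mul_apply, ih, map_mul, map_pow, hfix, pow_succ, mul_assoc, hq,
            inv_mul_cancel_right]
      show (((a : F.autGroup P) : MulAut P) ^ p ^ m) y = y
      rw [hpow]
      have h1 : (((a : F.autGroup P) : MulAut P) y * y⁻¹) ^ p ^ m = 1 := by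
        apply Subtype.ext
        have h2 := pow_card_eq_one' (x := (⟨_, a.2.2 y⟩ : U))
        rw [hm] at h2
        simpa using congrArg Subtype.val h2
      rw [h1, one_mul]
    have hβF : β ∈ F.autGroup P :=
      autInducedBy_le_autGroup hPS (mem_autInducedBy.2 ⟨w, hwS, fun x => rfl⟩)
    have hβS : (⟨β, hβF⟩ : F.autGroup P) ∈ Stab := by
      refine ⟨fun u hu => Subtype.ext ?_, fun y => ?_⟩
      · show w * (u : G) * w⁻¹ = u
        rw [← Subgroup.mem_centralizer_iff.1 hw.2 _ hu, mul_inv_cancel_right]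
      · show w * (y : G) * w⁻¹ * (y : G)⁻¹ ∈ U
        refine ⟨?_, P.mul_mem (hwnorm y y.2) (P.inv_mem y.2)⟩
        have := mul_mem hw.1 (hDn y (hPS y.2) _ (inv_mem hw.1))
        rwa [show w * ((y : G) * w⁻¹ * (y : G)⁻¹) = w * y * w⁻¹ * (y : G)⁻¹ by group] at this
    have hInn : β ∈ Cfsg.Inn P := by
      rw [← hr.2]
      exact ⟨_, (show Stab ≤ Cfsg.pCore p _ from le_sSup ⟨hStabN, hStabp⟩) hβS, rfl⟩
    obtain ⟨r', hr'⟩ := hInn
    have hcen : (r' : G)⁻¹ * w ∈ centralizerIn (S : Subgroup G) P := by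
      refine ⟨(S : Subgroup G).mul_mem ((S : Subgroup G).inv_mem (hPS r'.2)) hwS, Subgroup.mem_centralizer_iff.2 fun y hy => ?_⟩
      have h := congrArg Subtype.val (DFunLike.congr_fun hr' ⟨y, hy⟩)
      change (r' : G) * y * (r' : G)⁻¹ = w * y * w⁻¹ at h
      calc y * ((r' : G)⁻¹ * w) = (r' : G)⁻¹ * ((r' : G) * y * (r' : G)⁻¹) * w := by group
        _ = (r' : G)⁻¹ * (w * y * w⁻¹) * w := by rw [h]
        _ = (r' : G)⁻¹ * w * y := by group
    have h5 := mul_mem r'.2 (hc.2 P (CfsgLib.Fusion.IsConj.refl hPS) hcen)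
    rw [mul_inv_cancel_left] at h5
    exact hwP h5
  have hloc' := CfsgLib.Transfer.locallyTrivial_of_hasNormalPComplement
    (hloc U inf_le_left hkey)
  intro α
  obtain ⟨g, -, hg⟩ := mem_autInducedBy.1 ((autGroup_group hPS).le α.2)
  obtain ⟨k, m, hm, hkm⟩ :=
    Nat.exists_eq_pow_mul_and_not_dvd (orderOf_pos g).ne' p (Fact.out : p.Prime).ne_one
  have hgN : g ∈ Subgroup.normalizer (P : Set G) := mem_normalizer_of_conj hg
  have hPU : ∀ n ∈ Subgroup.normalizer (P : Set G), ∀ u ∈ U, n * u * n⁻¹ ∈ U := by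
    intro n hn u hu
    have h1 := conj_mem_of_normalizer hn hu.2
    exact ⟨hD.2 u hu.1 n (hPS h1), h1⟩
  have hnU : ∀ n ∈ Subgroup.normalizer (P : Set G), n ∈ Subgroup.normalizer (U : Set G) := by
    intro n hn
    refine Subgroup.mem_normalizer_iff.2 fun u => ⟨fun hu => hPU n hn u hu, fun hu => ?_⟩
    have := hPU n⁻¹ (inv_mem hn) _ hu
    simpa [mul_assoc] using this
  set N := Subgroup.normalizer (U : Set G)
  have hPN : P ≤ N := fun r hrP => hnU r (Subgroup.le_normalizer hrP)
  set y : N := ⟨g ^ p ^ k, hnU _ (pow_mem hgN _)⟩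
  have hyN : y ∈ Subgroup.normalizer ((P.subgroupOf N : Subgroup N) : Set N) := by
    refine Subgroup.mem_normalizer_iff.2 fun q => ?_
    exact Subgroup.mem_normalizer_iff.1 (pow_mem hgN (p ^ k)) (q : G)
  have hyo : (orderOf y).Coprime p := by
    rw [← Subgroup.orderOf_coe, orderOf_pow, hkm]
    rw [Nat.gcd_eq_right (dvd_mul_right _ _), Nat.mul_div_cancel_left _ (pow_pos (Fact.out : p.Prime).pos _)]
    exact (((Fact.out : p.Prime).coprime_iff_not_dvd).2 hm).symm
  have hy := hloc' (P.subgroupOf N)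
    ((S.isPGroup'.to_le hPS).of_equiv (Subgroup.subgroupOfEquivOfLe hPN).symm) y hyN hyo
  refine ⟨k, Subtype.ext (MulEquiv.ext fun x => Subtype.ext ?_)⟩
  have hpow : ∀ j : ℕ, ∀ x : P, ((((α : MulAut P)) ^ j) x : G) = g ^ j * x * (g ^ j)⁻¹ := by
    intro j
    induction j with
    | zero => intro x; simp
    | succ j ih =>
      intro x
      rw [pow_succ', MulAut.mul_apply, hg, ih, pow_succ']
      group
  show ((((α : MulAut P)) ^ p ^ k) x : G) = x
  rw [hpow]
  have h := congrArg Subtype.val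
    (Subgroup.mem_centralizer_iff.1 hy ⟨(x : G), hPN x.2⟩ (show (x : G) ∈ P from x.2))
  change (x : G) * g ^ p ^ k = g ^ p ^ k * x at h
  rw [← h, mul_inv_cancel_right]

theorem main (S : Sylow p G) {D : Subgroup G} (hD : Cfsg.IsStronglyClosed D (S : Subgroup G)) :
    Cfsg.HasNormalPComplement p G ↔ ∀ U : Subgroup G, U ≤ D →
      D ⊓ Subgroup.centralizer (U : Set G) ≤ U →
        Cfsg.HasNormalPComplement p ↥(Subgroup.normalizer (U : Set G)) := by
  refine ⟨fun h U _ _ => hasNormalPComplement_subgroup h _, fun hloc => ?_⟩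
  have hS := S.isPGroup'
  have hF : (groupFusionSystem (S : Subgroup G)).IsSaturated p := isSaturated_group S
  have hle : groupFusionSystem (S : Subgroup G) ≤ Cfsg.innerFusionSystem (S : Subgroup G) := by
    refine le_of_centricRadical hS hF _ fun P hn hc hr => ?_
    have hp := isPGroup_autGroup S hD hloc hn.1 hc hr
    have := finite_mulAut (S := (S : Subgroup G)) hn.1
    obtain ⟨-, R, hR⟩ := fullyAutomized_of_fullyNormalized hS hF hn
    have htop : (R : Subgroup ((groupFusionSystem (S : Subgroup G)).autGroup P)) = ⊤ :=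
      (R.3 (hp.of_equiv Subgroup.topEquiv.symm) le_top).symm
    rw [hR, Subgroup.subgroupOf_eq_top] at htop
    exact htop.trans (autInducedBy_le_autGroup hn.1)
  refine CfsgLib.Transfer.hasNormalPComplement_of_control S fun x hx g hg => ?_
  have hX : Subgroup.zpowers x ≤ (S : Subgroup G) := Subgroup.zpowers_le.2 hx
  have hmap : (Subgroup.zpowers x).map (MulAut.conj g).toMonoidHom ≤ (S : Subgroup G) := by
    rw [MonoidHom.map_zpowers]
    exact Subgroup.zpowers_le.2 hg
  obtain ⟨-, z, hz, he⟩ := hle _ (conjHom_mem_group hX hmap)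
  exact ⟨z, hz, (he ⟨x, Subgroup.mem_zpowers x⟩).symm⟩

end Cfsg.Agent.FrobClosed
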